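import Cfsg.Agent.H562.PQR.Iface
import Cfsg.Agent.H396.Crit
import Cfsg.Agent.KFacts.RgdFilt

/-!
# Proper parabolic subgroups which are not `l`-solvable (for S3988, helper274)

`R : RGD cs h p T n X` a root group datum, `P_J` the parabolic subgroups.

* `not_psolvable_PJ` : if `J` is connected with at least two nodes and `l` is a prime dividing `|P_J|`, not dividing
  `|B|`, or `l = p`, then `P_J` is not `l`-solvable;
* `notMin_of_rgd` : `|I| ≥ 3`: if `V ≠ 1` is a `p`-subgroup, the prime `l` divides `|N(V)|`, and `l = p` or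
  `l ∤ |T|`, then `NotMin l Y`.
-/

set_option autoImplicit false
set_option linter.unusedSectionVars false

namespace Cfsg.Agent.H274.Pqr

open CoxeterSystem Cfsg.Agent.ChevalleyStructure.CoxeterGeom Cfsg.Agent.Tits.Roots Cfsg.Agent.Tits.Core
  Cfsg.Agent.Tits.RootComb Cfsg.Agent.Tits.Exchange Cfsg.Agent.Nodes.Reps Cfsg.Agent.Nodes.BNOf
  Cfsg.Agent.Nodes.StabComb Cfsg.Agent.Nodes.Bruhat Cfsg.Agent.Nodes.OppDec Cfsg.Agent.Nodes.LeviDec
open Cfsg.Agent.H562.PQR (NotMin)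

/-! ### `l`-solvable groups -/

/-- a nontrivial finite `l`-solvable group has a nontrivial normal subgroup which is abelian or of order prime to
`l` -/
theorem exists_normal {Q : Type*} [Group Q] [Finite Q] [Nontrivial Q] {l : ℕ} (hl : l.Prime)
    (h : Cfsg.IsPSolvable l Q) : ∃ N : Subgroup Q, N.Normal ∧ N ≠ ⊥ ∧
      ((∀ x ∈ N, ∀ y ∈ N, x * y = y * x) ∨ ¬ l ∣ Nat.card N) := by
  obtain ⟨n, H, h0, hlast, -, hnorm, hfac⟩ := h
  by_contra hcon
  push Not at hcon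
  have key : ∀ i : Fin (n + 1), H i = ⊥ := by
    intro i
    induction i using Fin.induction with
    | zero => exact h0
    | succ i ih =>
      by_contra hne
      have hf := hfac i
      rw [ih, Subgroup.relIndex_bot_left] at hf
      rcases hf with ⟨m, hm⟩ | hf
      · -- the centre
        have : Fact l.Prime := ⟨hl⟩
        have hG : IsPGroup l (H i.succ) := IsPGroup.of_card hm
        have hnt : Nontrivial (H i.succ) := (Subgroup.nontrivial_iff_ne_bot _).2 hne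
        have hc : Nontrivial (Subgroup.center (H i.succ)) := hG.center_nontrivial
        have hnor := hnorm i.succ
        have hZ : ((Subgroup.center (H i.succ)).map (H i.succ).subtype).Normal := inferInstance
        have h1 := hcon _ hZ (fun h2 => (Subgroup.nontrivial_iff_ne_bot _).1 hc
          ((Subgroup.map_eq_bot_iff_of_injective _ (H i.succ).subtype_injective).1 h2))
        obtain ⟨⟨x, hx, y, hy, hxy⟩, -⟩ := h1
        obtain ⟨x', hx', rfl⟩ := hx
        obtain ⟨y', hy', rfl⟩ := hy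
        apply hxy
        rw [← map_mul, ← map_mul, Subgroup.mem_center_iff.1 hy' x']
      · have h1 := (hcon _ (hnorm i.succ) hne).2
        exact hl.one_lt.ne' ((Nat.Coprime.symm hf).eq_one_of_dvd h1)
  have h1 := key (Fin.last n)
  rw [hlast] at h1
  exact absurd h1 top_ne_bot

/-! ### The Weyl group -/

variable {I W Y : Type*} [Fintype I] [DecidableEq I] [Group W] [Group Y] {M : CoxeterMatrix I}
  {cs : CoxeterSystem M W} {A : I → I → ℤ} {h : IsCartan M A} {p : ℕ} {T : Subgroup Y} {n : I → Y}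
  {X : (I → ℤ) → Subgroup Y}

theorem mem_of_simple_mem (h : IsCartan M A) {J : Set I} {i : I} (hi : cs.simple i ∈ WJ cs J) : i ∈ J := by
  by_contra hJ
  have h1 := rep_apply_of_mem cs h hi (sr i) hJ
  rw [rep_simple_sr, Pi.neg_apply, sr_self] at h1
  exact absurd h1 (by decide)

theorem sr_refl_apply (h : IsCartan M A) {a b : I} (hab : a ≠ b) :
    rep cs h (cs.simple b) (sr a) b = -A b a ∧ rep cs h (cs.simple b) (sr a) a = 1 := by
  constructor
  · rw [rep_simple_apply_self, sr_ne hab.symm, sr, pairing_single, mul_one, zero_sub]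
  · rw [rep_simple_apply cs h b _ a hab, sr_self]

theorem length_two (h : IsCartan M A) {a b : I} (hab : a ≠ b) :
    cs.length (cs.simple b * cs.simple a) = cs.length (cs.simple b) + cs.length (cs.simple a) := by
  have h1 : cs.length (cs.simple b) < cs.length (cs.simple b * cs.simple a) := by
    rw [lt_iff' cs h]
    have h2 := (sr_refl_apply (cs := cs) h hab).2
    refine nonneg_of_pos_apply (cs := cs) (h := h) ((isRoot_sr cs h a).act _) (k := a) ?_
    show 0 < rep cs h (cs.simple b) (sr a) a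
    rw [h2]
    exact one_pos
  rcases cs.length_mul_simple (cs.simple b) a with h2 | h2
  · rw [h2, cs.length_simple, cs.length_simple]
  · omega

theorem length_three (h : IsCartan M A) {a b : I} (hab : a ≠ b) (h2 : M a b ≠ 2) :
    cs.length (cs.simple b * cs.simple a * cs.simple b) =
      cs.length (cs.simple b * cs.simple a) + cs.length (cs.simple b) := by
  have h1 : cs.length (cs.simple b * cs.simple a) < cs.length (cs.simple b * cs.simple a * cs.simple b) := by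
    rw [lt_iff' cs h]
    refine nonneg_of_pos_apply (cs := cs) (h := h) ((isRoot_sr cs h b).act _) (k := a) ?_
    show 0 < rep cs h (cs.simple b * cs.simple a) (sr b) a
    rw [rep_mul_apply, rep_simple_apply cs h b _ a hab, (sr_refl_apply (cs := cs) h hab.symm).1]
    have := cartan_neg h hab h2
    omega
  rcases cs.length_mul_simple (cs.simple b * cs.simple a) b with h2 | h2
  · rw [h2, cs.length_simple]
  · omega

/-- `s_b s_a s_b` is not in a parabolic subgroup without `b` -/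
theorem not_mem_WJ (h : IsCartan M A) {J : Set I} {a b : I} (hab : a ≠ b) (h2 : M a b ≠ 2) (hb : b ∉ J) :
    cs.simple b * cs.simple a * cs.simple b ∉ WJ cs J := by
  intro hw
  have h1 := rep_apply_of_mem cs h hw (rep cs h (cs.simple b) (sr a)) hb
  have h3 : rep cs h (cs.simple b * cs.simple a * cs.simple b) (rep cs h (cs.simple b) (sr a)) =
      -rep cs h (cs.simple b) (sr a) := by
    rw [← rep_mul_apply, mul_assoc (cs.simple b * cs.simple a), simple_mul_simple_self, mul_one, rep_mul_apply,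
      rep_simple_sr, map_neg]
  rw [h3, Pi.neg_apply, (sr_refl_apply (cs := cs) h hab).1] at h1
  have := cartan_neg h hab.symm (by rwa [M.symmetric])
  omega

/-! ### Normal subgroups of parabolic subgroups -/

/-- connected sets of nodes -/
def ConnJ (M : CoxeterMatrix I) (J : Set I) : Prop :=
  ∀ J₁ ⊆ J, J₁.Nonempty → J₁ ≠ J → ∃ a ∈ J₁, ∃ b ∈ J, b ∉ J₁ ∧ M a b ≠ 2

section Norm

variable (R : RGD cs h p T n X)
include R

theorem PJ_mono [Finite W] {J K : Set I} (hJK : J ⊆ K) : PJ cs h T X J ≤ PJ cs h T X K := by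
  intro g hg
  obtain ⟨w, hw, hc⟩ := (mem_PJ_iff_cell R).1 hg
  exact (mem_PJ_iff_cell R).2 ⟨w, WJ_mono cs hJK hw, hc⟩

theorem PJ_empty [Finite W] : PJ cs h T X ∅ = RGD.B cs h T X := by
  refine le_antisymm (fun g hg => ?_) B_le_PJ
  obtain ⟨w, hw, cg⟩ := (mem_PJ_iff_cell R).1 hg
  have h2 : w = 1 := by
    unfold WJ at hw
    rw [Set.image_empty, Subgroup.closure_empty, Subgroup.mem_bot] at hw
    exact hw
  rw [h2] at cg
  exact cg.mem_of_one

theorem n_mem_PJ_iff [Finite W] {J : Set I} {i : I} : n i ∈ PJ cs h T X J ↔ i ∈ J := by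
  constructor
  · intro h1
    exact mem_of_simple_mem h ((cell_mem_PJ_iff R (cell_of_rp (rp_simple cs R.nsys i))).1 h1)
  · exact fun h1 => LJ_le_PJ (n_mem_LJ R h1)

theorem PJ_ne_top [Finite W] {J : Set I} (hJ : J ≠ Set.univ) : PJ cs h T X J ≠ ⊤ := by
  intro h1
  obtain ⟨i, hi⟩ := (Set.ne_univ_iff_exists_notMem J).1 hJ
  exact hi ((n_mem_PJ_iff R).1 (h1 ▸ Subgroup.mem_top (n i)))

/-- **normal subgroups of irreducible parabolic subgroups** -/
theorem sup_eq_PJ [Finite W] {J : Set I} (hJ : ConnJ M J) {N : Subgroup Y} (hNP : N ≤ PJ cs h T X J)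
    (hN : ∀ g ∈ PJ cs h T X J, ∀ x ∈ N, g * x * g⁻¹ ∈ N) (hNB : ¬ N ≤ RGD.B cs h T X) :
    N ⊔ RGD.B cs h T X = PJ cs h T X J := by
  have hle : N ⊔ RGD.B cs h T X ≤ PJ cs h T X J := sup_le hNP B_le_PJ
  obtain ⟨K, hK⟩ : ∃ K : Set I, K = {i | n i ∈ N ⊔ RGD.B cs h T X} := ⟨_, rfl⟩
  have h1 : N ⊔ RGD.B cs h T X = PJ cs h T X K := by
    rw [hK, ← inf_eq_PJ R (P := N ⊔ RGD.B cs h T X) le_sup_right, inf_eq_left.2 (hle.trans PJ_le_GG)]
  have hKJ : K ⊆ J := by
    intro i hi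
    rw [hK] at hi
    exact (n_mem_PJ_iff R).1 (hle hi)
  have hne : K.Nonempty := by
    rw [Set.nonempty_iff_ne_empty]
    intro h2
    rw [h2, PJ_empty R] at h1
    exact hNB (h1 ▸ le_sup_left)
  by_cases hKJ' : K = J
  · rw [h1, hKJ']
  exfalso
  obtain ⟨a, ha, b, hb, hbK, hab⟩ := hJ K hKJ hne hKJ'
  have hab' : a ≠ b := by
    rintro rfl
    exact hbK ha
  have h2 : n a ∈ N ⊔ RGD.B cs h T X := by
    rw [hK] at ha
    exact ha
  -- `n a = x b'`
  have hBN : RGD.B cs h T X ≤ Subgroup.normalizer (N : Set Y) := by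
    intro g hg
    rw [Subgroup.mem_normalizer_iff]
    intro x
    constructor
    · exact hN g (B_le_PJ hg) x
    · intro hx
      have h3 := hN g⁻¹ (B_le_PJ (inv_mem hg)) _ hx
      have e : g⁻¹ * (g * x * g⁻¹) * g⁻¹⁻¹ = x := by group
      rwa [e] at h3
  have h3 : n a ∈ ((N ⊔ RGD.B cs h T X : Subgroup Y) : Set Y) := h2
  rw [sup_comm, Subgroup.coe_mul_of_left_le_normalizer_right _ _ hBN, Set.mem_mul] at h3
  obtain ⟨b', hb', x, hx, e⟩ := h3
  have hxa : Cell R.nsys cs h X (cs.simple a) x := by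
    have e' : x = b'⁻¹ * n a := by rw [← e]; group
    rw [e']
    exact (cell_of_rp (rp_simple cs R.nsys a)).mul_left (inv_mem hb')
  have hbc : Cell R.nsys cs h X (cs.simple b) (n b) := cell_of_rp (rp_simple cs R.nsys b)
  have hbc' : Cell R.nsys cs h X (cs.simple b) (n b)⁻¹ := by
    have := hbc.inv
    rwa [inv_simple] at this
  have h4 : Cell R.nsys cs h X (cs.simple b * cs.simple a * cs.simple b) (n b * x * (n b)⁻¹) :=
    Cell.mul_of_length R (length_three h hab' hab) (Cell.mul_of_length R (length_two h hab') hbc hxa) hbc'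
  have h5 : n b * x * (n b)⁻¹ ∈ PJ cs h T X K := by
    rw [← h1]
    exact (le_sup_left : N ≤ _) (hN _ (LJ_le_PJ (n_mem_LJ R hb)) x hx)
  exact not_mem_WJ h hab' hab hbK ((cell_mem_PJ_iff R h4).1 h5)

/-- elements of `N` over a simple reflection -/
theorem exists_cell [Finite W] {J : Set I} {N : Subgroup Y} (hN : ∀ g ∈ PJ cs h T X J, ∀ x ∈ N, g * x * g⁻¹ ∈ N)
    (he : N ⊔ RGD.B cs h T X = PJ cs h T X J) {g : Y} (hg : g ∈ PJ cs h T X J) :
    ∃ x ∈ N, ∃ b ∈ RGD.B cs h T X, g = x * b := by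
  have hBN : RGD.B cs h T X ≤ Subgroup.normalizer (N : Set Y) := by
    intro g hg
    rw [Subgroup.mem_normalizer_iff]
    intro x
    constructor
    · exact hN g (B_le_PJ hg) x
    · intro hx
      have h3 := hN g⁻¹ (B_le_PJ (inv_mem hg)) _ hx
      have e : g⁻¹ * (g * x * g⁻¹) * g⁻¹⁻¹ = x := by group
      rwa [e] at h3
  have h3 : g ∈ ((N ⊔ RGD.B cs h T X : Subgroup Y) : Set Y) := by rw [he]; exact hg
  rw [Subgroup.coe_mul_of_right_le_normalizer_left _ _ hBN, Set.mem_mul] at h3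
  obtain ⟨x, hx, b, hb, e⟩ := h3
  exact ⟨x, hx, b, hb, e.symm⟩

/-- the abelian case -/
theorem not_abelian [Finite W] {J : Set I} {N C : Subgroup Y}
    (hN : ∀ g ∈ PJ cs h T X J, ∀ x ∈ N, g * x * g⁻¹ ∈ N) (he : N ⊔ RGD.B cs h T X = PJ cs h T X J)
    (hCB : C ≤ RGD.B cs h T X) (hab : ∀ x ∈ N, ∀ y ∈ N, x * y * x⁻¹ * y⁻¹ ∈ C) {i j : I} (hi : i ∈ J) (hj : j ∈ J)
    (hij : i ≠ j) (hM : M i j ≠ 2) : False := by
  have key : ∀ k ∈ J, ∃ x ∈ N, Cell R.nsys cs h X (cs.simple k) x := by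
    intro k hk
    obtain ⟨x, hx, b, hb, e⟩ := exists_cell R hN he ((n_mem_PJ_iff R).2 hk)
    refine ⟨x, hx, ?_⟩
    have e' : x = n k * b⁻¹ := by rw [e]; group
    rw [e']
    exact (cell_of_rp (rp_simple cs R.nsys k)).mul_right (inv_mem hb)
  obtain ⟨x, hx, cx⟩ := key i hi
  obtain ⟨y, hy, cy⟩ := key j hj
  have h1 : Cell R.nsys cs h X (cs.simple i * cs.simple j) (x * y) :=
    Cell.mul_of_length R (length_two h hij.symm) cx cy
  have h2 : Cell R.nsys cs h X (cs.simple j * cs.simple i) (y * x) :=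
    Cell.mul_of_length R (length_two h hij) cy cx
  have h3 : Cell R.nsys cs h X (cs.simple j * cs.simple i) (x * y) := by
    have e : x * y = (x * y * x⁻¹ * y⁻¹) * (y * x) := by group
    rw [e]
    exact h2.mul_left (hCB (hab x hx y hy))
  have h4 := Cell.unique R h1 h3
  apply RGD.comm_ne (cs := cs) (h := h) hij hM
  rw [h4]
  group

theorem X_le_VJ {i j : I} (hij : i ≠ j) (hM : M i j ≠ 2) :
    X (rep cs h (cs.simple i) (sr j)) ≤ VJ cs h X {i} ⊓ VJ cs h X {j} := by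
  have hr : IsRoot cs h (rep cs h (cs.simple i) (sr j)) := (isRoot_sr cs h j).act _
  obtain ⟨h1, h2⟩ := sr_refl_apply (cs := cs) h hij.symm
  have h3 := cartan_neg h hij hM
  have h0 : 0 ≤ rep cs h (cs.simple i) (sr j) := nonneg_of_pos_apply (k := j) hr (by rw [h2]; exact one_pos)
  refine le_inf (RGD.le_Sup ⟨hr, h0, j, ?_, by rw [h2]; exact one_pos⟩)
    (RGD.le_Sup ⟨hr, h0, i, ?_, by rw [h1]; omega⟩)
  · rw [Set.mem_singleton_iff]; exact hij.symm
  · rw [Set.mem_singleton_iff]; exact hij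

theorem conj_step [Finite W] {J : Set I} {N C V : Subgroup Y}
    (hN : ∀ g ∈ PJ cs h T X J, ∀ x ∈ N, g * x * g⁻¹ ∈ N) (he : N ⊔ RGD.B cs h T X = PJ cs h T X J)
    (hC : ∀ g ∈ PJ cs h T X J, ∀ x ∈ C, g * x * g⁻¹ ∈ C)
    (hp : ∀ x ∈ N, (∃ k : ℕ, x ^ p ^ k = 1) → x ∈ C) {i : I} (hi : i ∈ J) (hVi : V ≤ VJ cs h X {i})
    (hVB : ∀ b ∈ RGD.B cs h T X, ∀ u ∈ V, b * u * b⁻¹ ∈ V) : cj (n i) (V ⊔ C) ≤ V ⊔ C := by
  have hiJ : PJ cs h T X {i} ≤ PJ cs h T X J := PJ_mono R (Set.singleton_subset_iff.2 hi)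
  have h1 : ∀ x ∈ N, x ∈ PJ cs h T X {i} → ∀ u ∈ V, x * u * x⁻¹ ∈ V ⊔ C := by
    intro x hx hxP u hu
    have e : x * u * x⁻¹ = (x * u * x⁻¹ * u⁻¹) * u := by group
    have huP : u ∈ PJ cs h T X J := B_le_PJ (VJ_le_B _ (hVi hu))
    have h2 : x * u * x⁻¹ * u⁻¹ ∈ N := by
      have h3 := hN u huP x⁻¹ (inv_mem hx)
      have e2 : x * u * x⁻¹ * u⁻¹ = x * (u * x⁻¹ * u⁻¹) := by group
      rw [e2]
      exact mul_mem hx h3
    have h3 : x * u * x⁻¹ * u⁻¹ ∈ VJ cs h X {i} :=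
      mul_mem ((Subgroup.mem_normalizer_iff.1 (PJ_le_normalizer_VJ R {i} hxP) u).1 (hVi hu)) (inv_mem (hVi hu))
    have h4 : x * u * x⁻¹ * u⁻¹ ∈ C := by
      refine hp _ h2 ?_
      have hP : IsPGroup p (VJ cs h X {i}) := R.isPGroup_Upos.to_le (VJ_le_U {i})
      obtain ⟨k, hk⟩ := hP ⟨_, h3⟩
      exact ⟨k, congrArg Subtype.val hk⟩
    rw [e]
    exact mul_mem ((le_sup_right : C ≤ _) h4) ((le_sup_left : V ≤ _) hu)
  have hni : n i ∈ PJ cs h T X {i} := (n_mem_PJ_iff R).2 (Set.mem_singleton i)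
  rw [cj_sup]
  refine sup_le ?_ ?_
  · intro y hy
    rw [mem_cj] at hy
    obtain ⟨x, hx, b, hb, e⟩ := exists_cell R hN he (hiJ hni)
    have hxP : x ∈ PJ cs h T X {i} := by
      have e' : x = n i * b⁻¹ := by rw [e]; group
      rw [e']
      exact mul_mem hni (inv_mem (B_le_PJ hb))
    have h2 := h1 x hx hxP _ (hVB b hb _ hy)
    have e2 : x * (b * ((n i)⁻¹ * y * n i) * b⁻¹) * x⁻¹ = y := by rw [e]; group
    rwa [e2] at h2
  · intro y hy
    rw [mem_cj] at hy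
    have h2 := hC (n i) (hiJ hni) _ hy
    have e2 : n i * ((n i)⁻¹ * y * n i) * (n i)⁻¹ = y := by group
    rw [e2] at h2
    exact (le_sup_right : C ≤ _) h2

/-- the case of the characteristic -/
theorem not_char [Finite W] {J : Set I} {N C : Subgroup Y}
    (hN : ∀ g ∈ PJ cs h T X J, ∀ x ∈ N, g * x * g⁻¹ ∈ N) (he : N ⊔ RGD.B cs h T X = PJ cs h T X J)
    (hCB : C ≤ RGD.B cs h T X) (hC : ∀ g ∈ PJ cs h T X J, ∀ x ∈ C, g * x * g⁻¹ ∈ C)
    (hp : ∀ x ∈ N, (∃ k : ℕ, x ^ p ^ k = 1) → x ∈ C) {i j : I} (hi : i ∈ J) (hj : j ∈ J)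
    (hij : i ≠ j) (hM : M i j ≠ 2) : False := by
  obtain ⟨V, hV⟩ : ∃ V : Subgroup Y, V = VJ cs h X {i} ⊓ VJ cs h X {j} := ⟨_, rfl⟩
  have hVB : ∀ b ∈ RGD.B cs h T X, ∀ u ∈ V, b * u * b⁻¹ ∈ V := by
    intro b hb u hu
    rw [hV] at hu ⊢
    exact ⟨(Subgroup.mem_normalizer_iff.1 (PJ_le_normalizer_VJ R {i} (B_le_PJ hb)) u).1 hu.1,
      (Subgroup.mem_normalizer_iff.1 (PJ_le_normalizer_VJ R {j} (B_le_PJ hb)) u).1 hu.2⟩
  have h1 : cj (n i) (V ⊔ C) ≤ V ⊔ C := conj_step R hN he hC hp hi (by rw [hV]; exact inf_le_left) hVB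
  have h2 : cj (n j) (V ⊔ C) ≤ V ⊔ C := conj_step R hN he hC hp hj (by rw [hV]; exact inf_le_right) hVB
  have h3 : X (rep cs h (cs.simple i) (sr j)) ≤ V ⊔ C := by
    refine le_trans ?_ le_sup_left
    rw [hV]
    exact X_le_VJ R hij hM
  have h4 : X (sr j) ≤ V ⊔ C := by
    have h5 := (cj_mono (n i) h3).trans h1
    rw [R.conj i _ ((isRoot_sr cs h j).act _), ← rep_mul_apply, simple_mul_simple_self, map_one,
      Module.End.one_apply] at h5
    exact h5
  have h5 : X (-sr j) ≤ V ⊔ C := by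
    have h6 := (cj_mono (n j) h4).trans h2
    rwa [R.conj j _ (isRoot_sr cs h j), rep_simple_sr] at h6
  refine R.not_neg_le_B j (h5.trans (sup_le ?_ hCB))
  rw [hV]
  exact inf_le_left.trans (VJ_le_B _)

/-- **Irreducible parabolic subgroups of rank at least two are not `l`-solvable** -/
theorem not_psolvable_PJ [Finite W] [Finite Y] {l : ℕ} (hl : l.Prime) {J : Set I} (hJ : ConnJ M J) {i j : I}
    (hi : i ∈ J) (hj : j ∈ J) (hij : i ≠ j) (hM : M i j ≠ 2)
    (hd : l = p ∨ (l ∣ Nat.card (PJ cs h T X J) ∧ ¬ l ∣ Nat.card (RGD.B cs h T X))) :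
    ¬ Cfsg.IsPSolvable l (PJ cs h T X J) := by
  intro hsol
  have hlF : Fact l.Prime := ⟨hl⟩
  obtain ⟨P, hP⟩ : ∃ P : Subgroup Y, P = PJ cs h T X J := ⟨_, rfl⟩
  obtain ⟨B, hB⟩ : ∃ B : Subgroup Y, B = RGD.B cs h T X := ⟨_, rfl⟩
  have hBP : B ≤ P := by rw [hB, hP]; exact B_le_PJ
  rw [← hP] at hsol hd
  rw [← hB] at hd
  let C' : Subgroup P := (B.subgroupOf P).normalCore
  have hC'B : C' ≤ B.subgroupOf P := Subgroup.normalCore_le _
  have hC'n : C'.Normal := Subgroup.normalCore_normal _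
  have hnt : Nontrivial (P ⧸ C') := by
    rw [QuotientGroup.nontrivial_iff]
    intro h1
    have h2 : (⟨n i, by rw [hP]; exact (n_mem_PJ_iff R).2 hi⟩ : P) ∈ C' := by rw [h1]; trivial
    have h3 : n i ∈ RGD.B cs h T X := by
      rw [← hB]
      exact Subgroup.mem_subgroupOf.1 (hC'B h2)
    rw [← PJ_empty R, n_mem_PJ_iff R] at h3
    exact h3
  obtain ⟨N₀, hN₀n, hN₀, hN₀2⟩ := exists_normal hl
    (Cfsg.Agent.PLocal.PSolvable.isPSolvable_quotient hsol C')
  let N' : Subgroup P := N₀.comap (QuotientGroup.mk' C')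
  have hN'n : N'.Normal := inferInstance
  have hC'N' : C' ≤ N' := by
    intro x hx
    show QuotientGroup.mk' C' x ∈ N₀
    have : QuotientGroup.mk' C' x = 1 := (QuotientGroup.eq_one_iff x).2 hx
    rw [this]
    exact one_mem _
  -- the subgroups of `Y`
  have memN : ∀ x : Y, x ∈ N'.map P.subtype ↔ ∃ hx : x ∈ P, (⟨x, hx⟩ : P) ∈ N' := by
    intro x
    constructor
    · rintro ⟨y, hy, rfl⟩
      exact ⟨y.2, hy⟩
    · rintro ⟨hx, hy⟩
      exact ⟨⟨x, hx⟩, hy, rfl⟩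
  have memC : ∀ x : Y, x ∈ C'.map P.subtype ↔ ∃ hx : x ∈ P, (⟨x, hx⟩ : P) ∈ C' := by
    intro x
    constructor
    · rintro ⟨y, hy, rfl⟩
      exact ⟨y.2, hy⟩
    · rintro ⟨hx, hy⟩
      exact ⟨⟨x, hx⟩, hy, rfl⟩
  have hN : ∀ g ∈ PJ cs h T X J, ∀ x ∈ N'.map P.subtype, g * x * g⁻¹ ∈ N'.map P.subtype := by
    intro g hg x hx
    rw [← hP] at hg
    obtain ⟨hxP, hx'⟩ := (memN x).1 hx
    exact (memN _).2 ⟨mul_mem (mul_mem hg hxP) (inv_mem hg), hN'n.conj_mem _ hx' ⟨g, hg⟩⟩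
  have hC : ∀ g ∈ PJ cs h T X J, ∀ x ∈ C'.map P.subtype, g * x * g⁻¹ ∈ C'.map P.subtype := by
    intro g hg x hx
    rw [← hP] at hg
    obtain ⟨hxP, hx'⟩ := (memC x).1 hx
    exact (memC _).2 ⟨mul_mem (mul_mem hg hxP) (inv_mem hg), hC'n.conj_mem _ hx' ⟨g, hg⟩⟩
  have hCB : C'.map P.subtype ≤ RGD.B cs h T X := by
    intro x hx
    obtain ⟨hxP, hx'⟩ := (memC x).1 hx
    rw [← hB]
    exact Subgroup.mem_subgroupOf.1 (hC'B hx')
  have hNP : N'.map P.subtype ≤ PJ cs h T X J := by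
    intro x hx
    rw [← hP]
    exact ((memN x).1 hx).1
  have hNB : ¬ N'.map P.subtype ≤ RGD.B cs h T X := by
    intro h1
    have h2 : N' ≤ B.subgroupOf P := by
      intro x hx
      rw [Subgroup.mem_subgroupOf, hB]
      exact h1 ⟨x, hx, rfl⟩
    have h3 : N' ≤ C' := Subgroup.normal_le_normalCore.2 h2
    apply hN₀
    rw [eq_bot_iff]
    intro y hy
    obtain ⟨x, rfl⟩ := QuotientGroup.mk'_surjective C' y
    rw [Subgroup.mem_bot]
    exact (QuotientGroup.eq_one_iff x).2 (h3 hy)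
  have he := sup_eq_PJ R hJ hNP hN hNB
  have hmk : ∀ x : P, x ∈ C' ↔ QuotientGroup.mk' C' x = 1 := fun x => (QuotientGroup.eq_one_iff x).symm
  rcases hN₀2 with hab | hl'
  · refine not_abelian R hN he hCB ?_ hi hj hij hM
    intro x hx y hy
    obtain ⟨hxP, hx'⟩ := (memN x).1 hx
    obtain ⟨hyP, hy'⟩ := (memN y).1 hy
    refine (memC _).2 ⟨mul_mem (mul_mem (mul_mem hxP hyP) (inv_mem hxP)) (inv_mem hyP), ?_⟩
    have h1 := hab _ hx' _ hy'
    have h2 : (⟨x * y * x⁻¹ * y⁻¹, mul_mem (mul_mem (mul_mem hxP hyP) (inv_mem hxP)) (inv_mem hyP)⟩ : P) =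
        (⟨x, hxP⟩ : P) * ⟨y, hyP⟩ * (⟨x, hxP⟩ : P)⁻¹ * (⟨y, hyP⟩ : P)⁻¹ := rfl
    rw [hmk, h2, map_mul, map_mul, map_mul, map_inv, map_inv, h1]
    group
  rcases hd with rfl | ⟨hd, hdB⟩
  · refine not_char R hN he hCB hC ?_ hi hj hij hM
    rintro x hx ⟨k, hk⟩
    obtain ⟨hxP, hx'⟩ := (memN x).1 hx
    refine (memC _).2 ⟨hxP, ?_⟩
    rw [hmk]
    have h1 : (QuotientGroup.mk' C' ⟨x, hxP⟩) ^ l ^ k = 1 := by
      rw [← map_pow]
      have : (⟨x, hxP⟩ : P) ^ l ^ k = 1 := Subtype.ext hk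
      rw [this, map_one]
    have h2 : orderOf (QuotientGroup.mk' C' (⟨x, hxP⟩ : P)) ∣ Nat.card N₀ := Subgroup.orderOf_dvd_natCard N₀ hx'
    have h3 : Nat.Coprime (l ^ k) (Nat.card N₀) := Nat.Coprime.pow_left k ((Nat.Prime.coprime_iff_not_dvd hl).2 hl')
    exact orderOf_eq_one_iff.1 (Nat.eq_one_of_dvd_coprimes h3 (orderOf_dvd_of_pow_eq_one h1) h2)
  · -- the order of `N'` is prime to `l`
    have hC'l : ¬ l ∣ Nat.card C' := by
      intro h1
      apply hdB
      have h2 : Nat.card (B.subgroupOf P) = Nat.card B := Nat.card_congr (Subgroup.subgroupOfEquivOfLe hBP).toEquiv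
      rw [← h2]
      exact h1.trans (Subgroup.card_dvd_of_le hC'B)
    have hN'l : ¬ l ∣ Nat.card N' := by
      intro h1
      have h2 : Nat.card N' = Nat.card N₀ * Nat.card C' := by
        have h3 := Subgroup.relIndex_ker N' (QuotientGroup.mk' C')
        rw [QuotientGroup.ker_mk', Subgroup.map_comap_eq_self_of_surjective (QuotientGroup.mk'_surjective C')] at h3
        have h4 := Subgroup.relIndex_mul_relIndex ⊥ C' N' bot_le hC'N'
        rw [Subgroup.relIndex_bot_left, Subgroup.relIndex_bot_left, h3] at h4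
        rw [← h4, mul_comm]
      rw [h2] at h1
      rcases hl.dvd_mul.1 h1 with h3 | h3
      · exact hl' h3
      · exact hC'l h3
    let f : B →* P ⧸ N' := (QuotientGroup.mk' N').comp (Subgroup.inclusion hBP)
    have hf : Function.Surjective f := by
      intro y
      obtain ⟨g, rfl⟩ := QuotientGroup.mk'_surjective N' y
      obtain ⟨x, hx, b, hb, e⟩ := exists_cell R hN he (g := g) (by rw [← hP]; exact g.2)
      obtain ⟨hxP, hx'⟩ := (memN x).1 hx
      rw [← hB] at hb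
      refine ⟨⟨b, hb⟩, ?_⟩
      have h1 : g = ⟨x, hxP⟩ * ⟨b, hBP hb⟩ := Subtype.ext e
      rw [h1, map_mul]
      have h2 : QuotientGroup.mk' N' ⟨x, hxP⟩ = 1 := (QuotientGroup.eq_one_iff _).2 hx'
      rw [h2, one_mul]
      rfl
    have h1 := Subgroup.card_dvd_of_surjective f hf
    have h2 := Subgroup.card_eq_card_quotient_mul_card_subgroup N'
    rw [h2] at hd
    rcases hl.dvd_mul.1 hd with h3 | h3
    · exact hdB (h3.trans h1)
    · exact hN'l h3

/-- a connected set of nodes with `l ∣ |P_J|` -/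
theorem exists_conn [Finite W] [Finite Y] {l : ℕ} (hl : l.Prime) (hB : ¬ l ∣ Nat.card (RGD.B cs h T X))
    {J₀ : Finset I} (hJ₀ : l ∣ Nat.card (PJ cs h T X (J₀ : Set I))) :
    ∃ J : Finset I, J ⊆ J₀ ∧ J.Nonempty ∧ ConnJ M (J : Set I) ∧ l ∣ Nat.card (PJ cs h T X (J : Set I)) := by
  classical
  induction hc : J₀.card using Nat.strong_induction_on generalizing J₀ with
  | _ N ih =>
  by_cases hex : ∃ K ⊆ J₀, K ≠ J₀ ∧ l ∣ Nat.card (PJ cs h T X (K : Set I))
  · obtain ⟨K, hK, hne, hd⟩ := hex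
    obtain ⟨J, h1, h2⟩ := ih _ (by rw [← hc]; exact Finset.card_lt_card (lt_of_le_of_ne hK hne)) hd rfl
    exact ⟨J, h1.trans hK, h2⟩
  push Not at hex
  refine ⟨J₀, Finset.Subset.refl _, ?_, ?_, hJ₀⟩
  · by_contra hne
    rw [Finset.not_nonempty_iff_eq_empty] at hne
    rw [hne, Finset.coe_empty, PJ_empty R] at hJ₀
    exact hB hJ₀
  · intro S hS hne hne'
    by_contra hcon
    push Not at hcon
    obtain ⟨J₁, rfl⟩ : ∃ J₁ : Finset I, (J₁ : Set I) = S := ⟨S.toFinset, by simp⟩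
    rw [Finset.coe_subset] at hS
    have hne2 : J₁ ≠ J₀ := fun h1 => hne' (by rw [h1])
    have hdis : Disjoint (J₁ : Set I) ((J₀ \ J₁ : Finset I) : Set I) := by
      rw [Finset.disjoint_coe]
      exact Finset.disjoint_sdiff
    have hun : (J₁ : Set I) ∪ ((J₀ \ J₁ : Finset I) : Set I) = (J₀ : Set I) := by
      rw [← Finset.coe_union, Finset.union_sdiff_of_subset hS]
    have h1 := Cfsg.Agent.H396.Crit.card_PJ_mul R hdis (fun i hi j hj => by
      rw [Finset.mem_coe, Finset.mem_sdiff] at hj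
      exact hcon i hi j (Finset.mem_coe.2 hj.1) (fun h2 => hj.2 (Finset.mem_coe.1 h2)))
    rw [hun] at h1
    have h2 : l ∣ Nat.card (PJ cs h T X (J₁ : Set I)) * Nat.card (PJ cs h T X ((J₀ \ J₁ : Finset I) : Set I)) := by
      rw [h1]; exact hJ₀.mul_right _
    rcases hl.dvd_mul.1 h2 with h3 | h3
    · exact hex J₁ hS hne2 h3
    · refine hex _ Finset.sdiff_subset (fun h4 => ?_) h3
      obtain ⟨a, ha⟩ := hne
      have : a ∈ J₀ \ J₁ := by rw [h4]; exact hS (Finset.mem_coe.1 ha)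
      exact (Finset.mem_sdiff.1 this).2 (Finset.mem_coe.1 ha)

omit R in
theorem connJ_pair {i j : I} (hM : M i j ≠ 2) : ConnJ M {i, j} := by
  intro S hS hne hne'
  by_cases hi : i ∈ S
  · have hj : j ∉ S := fun hj => hne' (Set.Subset.antisymm hS (by
      rintro k (rfl | rfl)
      · exact hi
      · exact hj))
    exact ⟨i, hi, j, by simp, hj, hM⟩
  · have hj : j ∈ S := by
      obtain ⟨k, hk⟩ := hne
      rcases hS hk with rfl | rfl
      · exact absurd hk hi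
      · exact hk
    exact ⟨j, hj, i, by simp, hi, by rwa [M.symmetric]⟩

/-- **a proper parabolic subgroup which is not `l`-solvable** -/
theorem exists_PJ [Finite W] [Finite Y] [Fact p.Prime] {l : ℕ} (hl : l.Prime) (hM : Cfsg.Agent.H396.Conn M)
    (h3 : 3 ≤ Fintype.card I) {J₀ : Set I} (hJ₀ : J₀ ≠ Set.univ) (hd : l ∣ Nat.card (PJ cs h T X J₀))
    (hlT : l = p ∨ ¬ l ∣ Nat.card T) :
    ∃ J : Set I, J ≠ Set.univ ∧ ¬ Cfsg.IsPSolvable l (PJ cs h T X J) := by
  classical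
  have pair_ne : ∀ i j : I, ({i, j} : Set I) ≠ Set.univ := by
    intro i j h1
    have h2 : (Finset.univ : Finset I) ⊆ {i, j} := by
      intro k _
      have : k ∈ ({i, j} : Set I) := by rw [h1]; trivial
      simpa using this
    have h4 := Finset.card_le_card h2
    have h5 : Finset.card {i, j} ≤ 2 := Finset.card_le_two
    rw [Finset.card_univ] at h4
    omega
  have nbr : ∀ i : I, ∃ j, i ≠ j ∧ M i j ≠ 2 := by
    intro i
    obtain ⟨a, ha, b, hb, hab⟩ := hM {i} (Set.singleton_nonempty i) (fun h1 => pair_ne i i (by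
      rw [Set.pair_eq_singleton, h1]))
    rw [Set.mem_singleton_iff] at ha hb
    rw [ha] at hab
    exact ⟨b, fun h1 => hb h1.symm, hab⟩
  have hne : Nonempty I := by
    rw [← Fintype.card_pos_iff]
    omega
  by_cases hlp : l = p
  · obtain ⟨i⟩ := hne
    obtain ⟨j, hij, hj⟩ := nbr i
    exact ⟨{i, j}, pair_ne i j, not_psolvable_PJ R hl (connJ_pair hj) (by simp) (by simp) hij hj (Or.inl hlp)⟩
  have hT := hlT.resolve_left hlp
  have hU : ¬ l ∣ Nat.card (RGD.Sup X (RGD.Pos cs h)) := by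
    intro h2
    obtain ⟨k, hk⟩ := (IsPGroup.iff_card (p := p)).1 R.isPGroup_Upos
    rw [hk] at h2
    exact hlp ((Nat.prime_dvd_prime_iff_eq hl Fact.out).1 (hl.dvd_of_dvd_pow h2))
  have hB : ¬ l ∣ Nat.card (RGD.B cs h T X) := by
    rw [← Cfsg.Agent.H396.Crit.card_B R]
    intro h1
    rcases hl.dvd_mul.1 h1 with h2 | h2
    · exact hT h2
    · exact hU h2
  obtain ⟨J, hJ1, ⟨i, hi⟩, hJ3, hJ4⟩ := exists_conn R hl hB (J₀ := J₀.toFinset) (by rwa [Set.coe_toFinset])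
  have hJu : (J : Set I) ≠ Set.univ := by
    intro h1
    apply hJ₀
    rw [Set.eq_univ_iff_forall]
    intro k
    have : k ∈ (J : Set I) := by rw [h1]; trivial
    exact Set.mem_toFinset.1 (hJ1 (Finset.mem_coe.1 this))
  by_cases hJ5 : (J : Set I) = {i}
  · obtain ⟨j, hij, hj⟩ := nbr i
    refine ⟨{i, j}, pair_ne i j, not_psolvable_PJ R hl (connJ_pair hj) (by simp) (by simp) hij hj
      (Or.inr ⟨?_, hB⟩)⟩
    rw [hJ5] at hJ4
    exact hJ4.trans (Subgroup.card_dvd_of_le (PJ_mono R (by simp)))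
  · obtain ⟨a, ha, b, hb, hb2, hab⟩ := hJ3 {i} (by
      rw [Set.singleton_subset_iff]
      exact Finset.mem_coe.2 hi) (Set.singleton_nonempty i) (fun h1 => hJ5 h1.symm)
    rw [Set.mem_singleton_iff] at ha hb2
    exact ⟨J, hJu, not_psolvable_PJ R hl hJ3 (i := a) (j := b) (by rw [ha]; exact Finset.mem_coe.2 hi) hb
      (by rw [ha]; exact fun h1 => hb2 h1.symm) hab (Or.inr ⟨hJ4, hB⟩)⟩

/-- **The parabolic lemma** for groups with a filtered root group datum of rank at least three. -/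
theorem notMin_of_rgd [Finite W] [Finite Y] [Fact p.Prime] {F : (I → ℤ) → ℝ → Subgroup Y}
    (hF : Cfsg.Agent.KFacts.RgdBorelTits.Filt R F) (hG : Nodes.RGDLib.G1 cs h X = ⊤)
    (hM : Cfsg.Agent.H396.Conn M) (h3 : 3 ≤ Fintype.card I) {l : ℕ} (hl : l.Prime)
    (hlT : l = p ∨ ¬ l ∣ Nat.card T) {V : Subgroup Y} (hV : IsPGroup p V) (hV1 : V ≠ ⊥)
    (hd : l ∣ Nat.card (Subgroup.normalizer (V : Set Y))) : NotMin l Y := by
  obtain ⟨g, J₀, hJ₀, -, hle⟩ := Cfsg.Agent.KFacts.RgdFilt.borel_tits_of_filt hF hG hV hV1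
  have h1 : l ∣ Nat.card (PJ cs h T X J₀) := by
    have h2 := hd.trans (Subgroup.card_dvd_of_le hle)
    have h4 : Nat.card (cj g (PJ cs h T X J₀)) = Nat.card (PJ cs h T X J₀) := Nat.card_congr
      (Subgroup.equivMapOfInjective _ (MulAut.conj g).toMonoidHom (MulAut.conj g).injective).toEquiv.symm
    rwa [h4] at h2
  obtain ⟨J, hJ, hJs⟩ := exists_PJ R hl hM h3 hJ₀ h1 hlT
  exact ⟨PJ cs h T X J, PJ_ne_top R hJ, hJs⟩

end Norm

end Cfsg.Agent.H274.Pqr
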