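import Cfsg.Agent.H274.Pqr.Par
import Cfsg.Agent.H983.ElPar.Exc
import Cfsg.Agent.H155.TG.ChevTab
import Cfsg.Agent.H135.TorusTab
import Cfsg.Agent.H631.Fpf.EmbF4
import Cfsg.Agent.S0242
import Cfsg.Agent.S0280

/-!
# The parabolic lemma for `F₄(q)`, `E₆(q)`, `E₇(q)`, `E₈(q)`, `²E₆(q)` (for S3988, helper274)

If `V ≠ 1` is a subgroup of `p`-power order (`p` the characteristic) and the odd prime `l` divides `|N(V)|`, then a
proper subgroup is not `l`-solvable: `par_F4`, `par_E6`, `par_E7`, `par_E8`, `par_2E6`.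
-/

set_option autoImplicit false
set_option linter.unusedSectionVars false

namespace Cfsg.Agent.H274.Pqr

open Cfsg.Agent.H562.PQR (NotMin)

/-! ### Homomorphisms from `SL₂(q)` -/

section SL2

variable {K : Type} [Field K] [Fintype K]

theorem card_SL2 : Nat.card (Matrix.SpecialLinearGroup (Fin 2) K) =
    Fintype.card K * (Fintype.card K ^ 2 - 1) := by
  have h1 := S0242.result (F := K) rfl 2 (by norm_num)
  have hq : 2 ≤ Fintype.card K := Fintype.one_lt_card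
  rw [Fin.prod_univ_two] at h1
  have h3 : Fintype.card K ^ 2 - Fintype.card K ^ 1 = (Fintype.card K - 1) * Fintype.card K := by
    rw [Nat.sub_mul, one_mul, pow_one, pow_two]
  simp only [Fin.val_zero, Fin.val_one, pow_zero] at h1
  rw [h3] at h1
  have h4 : (Fintype.card K - 1) * Nat.card (Matrix.SpecialLinearGroup (Fin 2) K) =
      (Fintype.card K - 1) * (Fintype.card K * (Fintype.card K ^ 2 - 1)) := by rw [h1]; ring
  exact Nat.eq_of_mul_eq_mul_left (by omega) h4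

theorem commutator_SL2 (h : 3 < Fintype.card K) : commutator (Matrix.SpecialLinearGroup (Fin 2) K) = ⊤ := by
  classical
  have hx : ∃ x : K, x ≠ 0 ∧ x ^ 2 ≠ 1 := by
    have h1 : ({0, 1, -1} : Finset K).card < (Finset.univ : Finset K).card := by
      refine lt_of_le_of_lt Finset.card_le_three ?_
      rwa [Finset.card_univ]
    obtain ⟨x, -, hx⟩ := Finset.exists_mem_notMem_of_card_lt_card h1
    simp only [Finset.mem_insert, Finset.mem_singleton, not_or] at hx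
    refine ⟨x, hx.1, ?_⟩
    intro h2
    rcases (mul_self_eq_one_iff.mp (by rw [← sq]; exact h2) : x = 1 ∨ x = -1) with h3 | h3
    · exact hx.2.1 h3
    · exact hx.2.2 h3
  obtain ⟨x, h0, h1⟩ := hx
  exact Matrix.SL2.commutator_eq_top h0 h1

/-- a nontrivial homomorphism of `SL₂(q)` into a larger group -/
theorem notMin_of_sl2 (h4 : 3 < Fintype.card K) {G : Type*} [Group G] [Finite G]
    (φ : Matrix.SpecialLinearGroup (Fin 2) K →* G) (hφ : ∃ x, φ x ≠ 1)
    (hlt : Nat.card (Matrix.SpecialLinearGroup (Fin 2) K) < Nat.card G) {l : ℕ} (hl : l.Prime) (hl2 : l ≠ 2)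
    (hd : l ∣ Nat.card (Matrix.SpecialLinearGroup (Fin 2) K)) : NotMin l G := by
  have hs : IsSimpleGroup (Matrix.ProjectiveSpecialLinearGroup (Fin 2) K) :=
    Matrix.ProjectiveSpecialLinearGroup.rank_two_simple (by rw [Nat.card_eq_fintype_card]; exact h4)
  let g : Matrix.SpecialLinearGroup (Fin 2) K →* Matrix.ProjectiveSpecialLinearGroup (Fin 2) K :=
    QuotientGroup.mk' (Subgroup.center (Matrix.SpecialLinearGroup (Fin 2) K))
  have hg : Function.Surjective g := QuotientGroup.mk'_surjective _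
  have hgk : g.ker = Subgroup.center (Matrix.SpecialLinearGroup (Fin 2) K) := QuotientGroup.ker_mk' _
  have hc := commutator_SL2 h4
  -- noncommutative
  have hna : ∃ x y : Matrix.ProjectiveSpecialLinearGroup (Fin 2) K, x * y ≠ y * x := by
    by_contra hcon
    push Not at hcon
    have h1 : commutator (Matrix.SpecialLinearGroup (Fin 2) K) ≤ g.ker := by
      rw [commutator_def, Subgroup.commutator_le]
      intro a _ b _
      rw [MonoidHom.mem_ker, map_commutatorElement, commutatorElement_def, hcon (g a) (g b)]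
      group
    rw [hc] at h1
    obtain ⟨x, y, hxy⟩ := exists_pair_ne (Matrix.ProjectiveSpecialLinearGroup (Fin 2) K)
    have h2 : ∀ z : Matrix.ProjectiveSpecialLinearGroup (Fin 2) K, z = 1 := by
      intro z
      obtain ⟨w, rfl⟩ := hg z
      exact h1 (Subgroup.mem_top w)
    exact hxy (by rw [h2 x, h2 y])
  -- the order
  have hdT : l ∣ Nat.card (Matrix.ProjectiveSpecialLinearGroup (Fin 2) K) := by
    have h1 := Subgroup.card_eq_card_quotient_mul_card_subgroup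
      (Subgroup.center (Matrix.SpecialLinearGroup (Fin 2) K))
    rw [h1] at hd
    rcases hl.dvd_mul.1 hd with h2 | h2
    · exact h2
    · exfalso
      rw [S0280.card_center_SL (by norm_num)] at h2
      have h3 := h2.trans (Nat.gcd_dvd_left 2 _)
      exact hl2 ((Nat.prime_dvd_prime_iff_eq hl Nat.prime_two).1 h3)
  -- the kernel
  have hker : φ.ker ≤ g.ker := by
    have hn : (φ.ker.map g).Normal := Subgroup.Normal.map inferInstance g hg
    rcases hn.eq_bot_or_eq_top with h1 | h1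
    · rwa [Subgroup.map_eq_bot_iff] at h1
    · exfalso
      have h2 : ∀ x : Matrix.SpecialLinearGroup (Fin 2) K, ∃ k ∈ φ.ker, ∃ z ∈ g.ker, x = k * z := by
        intro x
        obtain ⟨k, hk, hkx⟩ : g x ∈ φ.ker.map g := by rw [h1]; trivial
        refine ⟨k, hk, k⁻¹ * x, ?_, by group⟩
        rw [MonoidHom.mem_ker, map_mul, map_inv, hkx, inv_mul_cancel]
      have h3 : commutator (Matrix.SpecialLinearGroup (Fin 2) K) ≤ φ.ker := by
        rw [commutator_def, Subgroup.commutator_le]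
        intro a _ b _
        obtain ⟨k, hk, z, hz, rfl⟩ := h2 a
        obtain ⟨k', hk', z', hz', rfl⟩ := h2 b
        rw [hgk] at hz hz'
        rw [MonoidHom.mem_ker] at hk hk' ⊢
        have h5 := Subgroup.mem_center_iff.1 hz' z
        rw [map_commutatorElement, commutatorElement_def, map_mul, map_mul, hk, hk', one_mul, one_mul, ← map_mul, h5,
          map_mul]
        group
      rw [hc] at h3
      obtain ⟨x, hx⟩ := hφ
      exact hx (h3 (Subgroup.mem_top x))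
  exact NotMin.of_hom_lt hna hl hdT φ g hg hker hlt

theorem card_lt {c n q N : ℕ} (hc0 : 0 < c) (hc : c ≤ 3) (hn : 0 < n) (hN : 5 ≤ N) (hq : 2 ≤ q)
    (h : q ^ N ∣ c * n) : q * (q ^ 2 - 1) < n := by
  obtain ⟨M, h⟩ := h
  have hM : 0 < M := by
    rcases Nat.eq_zero_or_pos M with rfl | h1
    · exfalso
      rw [mul_zero] at h
      have := Nat.mul_pos hc0 hn
      omega
    · exact h1
  have h1 : q ^ 5 ≤ q ^ N := Nat.pow_le_pow_right (by omega) hN
  have h2 : q ^ N ≤ q ^ N * M := Nat.le_mul_of_pos_right _ hM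
  have h3 : c * n ≤ 3 * n := Nat.mul_le_mul_right n hc
  have h4 : q * (q ^ 2 - 1) ≤ q ^ 3 := by
    calc q * (q ^ 2 - 1) ≤ q * q ^ 2 := Nat.mul_le_mul_left q (Nat.sub_le _ _)
      _ = q ^ 3 := by ring
  have h5 : 4 * q ^ 3 ≤ q ^ 5 := by
    have : 4 ≤ q ^ 2 := by nlinarith
    calc 4 * q ^ 3 ≤ q ^ 2 * q ^ 3 := Nat.mul_le_mul_right _ this
      _ = q ^ 5 := by ring
  have h6 : 0 < q ^ 3 := by positivity
  omega

end SL2

/-! ### The untwisted groups -/

section Chev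

open CoxeterSystem Cfsg.Agent.ChevalleyStructure.CoxeterGeom Cfsg.Agent.Tits.Roots Cfsg.Agent.Tits.Core
open Cfsg.Agent.Nodes Cfsg.Agent.Nodes.RGDLib Cfsg.Agent.Nodes.RGDChev
open Cfsg.Agent.ChevalleyStructure Cfsg.Agent.ChevalleyStructure.Elts Cfsg.Agent.ChevalleyStructure.NPerm
  Cfsg.Agent.ChevalleyStructure.CoxeterGeomTypes
open Cfsg.Agent.ParSys.RootExc
open Cfsg.Agent.H138.SqChev
open Cfsg.Lie

variable {F : Type} [Field F] [Fintype F]

theorem notMin_chev {D : ChevalleyDatum} (hD : InList D) (h0 : 0 < D.nroots) (h4 : 3 < Fintype.card F)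
    (hlt : Fintype.card F * (Fintype.card F ^ 2 - 1) < Nat.card ↥(D.group F)) {l : ℕ} (hl : l.Prime) (hl2 : l ≠ 2)
    (hd : l ∣ Fintype.card F * (Fintype.card F ^ 2 - 1)) : NotMin l ↥(D.group F) := by
  have hfin : Finite ↥(D.group F) := Nat.finite_of_card_ne_zero (by omega)
  obtain ⟨φ, h1, h2⟩ := Cfsg.Agent.S1030.result (F := F) D hD 0 h0
  have hle : ∀ r, D.rootSubgroup F r ≤ D.group F := by
    intro r
    refine (Subgroup.closure_le _).2 ?_
    rintro g ⟨t, hg⟩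
    rw [(eq_xG_iff hD g r t).2 hg]
    exact xG_mem_group hD r t
  have hφ : ∀ g, φ g ∈ D.group F := by
    intro g
    have h3 : φ g ∈ φ.range := ⟨g, rfl⟩
    rw [h1] at h3
    exact (sup_le (hle _) (hle _)) h3
  refine notMin_of_sl2 h4 (φ.codRestrict (D.group F) hφ) ?_ (by rwa [card_SL2]) hl hl2 (by rwa [card_SL2])
  refine ⟨Cfsg.Agent.H135.TorusTab.up F 1, fun h3 => ?_⟩
  have h4 : φ (Cfsg.Agent.H135.TorusTab.up F 1) = 1 := congrArg Subtype.val h3
  have h5 := (h2 (Cfsg.Agent.H135.TorusTab.up F 1) 1).1 rfl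
  rw [h4, Units.val_one] at h5
  exact one_ne_zero ((x_eq_one_iff hD h0 (1 : F)).1 h5.symm)

theorem dvd_of_exp {G : Type*} [Group G] [Finite G] {T : Subgroup G} {l m : ℕ} (hl : l.Prime)
    (hT : ∀ t ∈ T, t ^ m = 1) (hd : l ∣ Nat.card T) : l ∣ m := by
  have : Fact l.Prime := ⟨hl⟩
  obtain ⟨t, ht⟩ := exists_prime_orderOf_dvd_card' l hd
  rw [← ht]
  exact orderOf_dvd_of_pow_eq_one (Subtype.ext (hT t t.2))

theorem par_chev {D : ChevalleyDatum} {k : ℕ} {M : CoxeterMatrix (Fin k)} (hp : IsType D k M) (hk : 3 ≤ k)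
    (hM : Cfsg.Agent.H396.Conn M) (h0 : 0 < D.nroots)
    (hlt : Fintype.card F * (Fintype.card F ^ 2 - 1) < Nat.card ↥(D.group F)) {p : ℕ} [CharP F p]
    {l : ℕ} (hl : l.Prime) (hl2 : l ≠ 2) {V : Subgroup ↥(D.group F)} (hV : IsPGroup p V) (hV1 : V ≠ ⊥)
    (hd : l ∣ Nat.card (Subgroup.normalizer (V : Set ↥(D.group F)))) : NotMin l ↥(D.group F) := by
  have : Fact p.Prime := ⟨CharP.char_is_prime F p⟩
  have hW : Finite M.Group := finite_W hp M.toCoxeterSystem
  have hfin : Finite ↥(D.group F) := Nat.finite_of_card_ne_zero (by omega)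
  by_cases hT : l ∣ Nat.card ((D.diagonalSubgroup F).subgroupOf (D.group F))
  · have h1 : l ∣ Fintype.card F - 1 := by
      refine dvd_of_exp hl ?_ hT
      intro t ht
      apply Subtype.ext
      rw [SubgroupClass.coe_pow]
      exact diag_pow hp F (Subgroup.mem_subgroupOf.1 ht)
    have hq : 2 ≤ Fintype.card F := Fintype.one_lt_card
    have h2 := Nat.le_of_dvd (by omega) h1
    have h3 : 2 < l := lt_of_le_of_ne hl.two_le (Ne.symm hl2)
    refine notMin_chev hp.inList h0 (by omega) hlt hl hl2 ?_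
    refine Dvd.dvd.mul_left (h1.trans ?_) _
    exact ⟨Fintype.card F + 1, by
      obtain ⟨m, hm⟩ : ∃ m, Fintype.card F = m + 1 := ⟨Fintype.card F - 1, by omega⟩
      rw [hm, Nat.add_sub_cancel]
      have : (m + 1) ^ 2 = m * (m + 1 + 1) + 1 := by ring
      rw [this, Nat.add_sub_cancel]⟩
  · exact notMin_of_rgd (rgd (K := F) hp M.toCoxeterSystem p) (KFacts.RgdFiltChev.filt hp M.toCoxeterSystem p)
      (G1_eq_top hp _) hM (by rwa [Fintype.card_fin]) hl (Or.inr hT) hV hV1 hd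

theorem par_F4 {p : ℕ} [CharP F p] {l : ℕ} (hl : l.Prime) (hl2 : l ≠ 2) {V : Subgroup ↥(chevF4.group F)}
    (hV : IsPGroup p V) (hV1 : V ≠ ⊥) (hd : l ∣ Nat.card (Subgroup.normalizer (V : Set ↥(chevF4.group F)))) :
    NotMin l ↥(chevF4.group F) := by
  have hp := Omega.ML.Ex.Lie2.DatF4.isType_F4
  refine par_chev hp (by norm_num) Cfsg.Agent.H155.TG.conn_F4 (by decide +kernel) ?_ hl hl2 hV hV1 hd
  have h1 := Cfsg.Agent.S1062.result (F := F) rfl
  have hpos : 0 < Nat.card ↥(chevF4.group F) := Nat.card_pos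
  exact card_lt (c := 1) (N := 24) one_pos (by norm_num) hpos (by norm_num) Fintype.one_lt_card
    (by rw [one_mul, h1]; simp only [mul_assoc]; exact Dvd.intro _ rfl)

theorem par_E6 {p : ℕ} [CharP F p] {l : ℕ} (hl : l.Prime) (hl2 : l ≠ 2) {V : Subgroup ↥(chevE6.group F)}
    (hV : IsPGroup p V) (hV1 : V ≠ ⊥) (hd : l ∣ Nat.card (Subgroup.normalizer (V : Set ↥(chevE6.group F)))) :
    NotMin l ↥(chevE6.group F) := by
  have hp : IsType chevE6 6 CoxeterMatrix.E₆ := by simp [IsType, typeList]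
  refine par_chev hp (by norm_num) Cfsg.Agent.H155.TG.conn_E6 (by decide +kernel) ?_ hl hl2 hV hV1 hd
  have h1 := Cfsg.Agent.S1063.result (F := F) rfl
  have hpos : 0 < Nat.card ↥(chevE6.group F) := Nat.card_pos
  exact card_lt (c := Nat.gcd 3 (Fintype.card F - 1)) (N := 36) (Nat.gcd_pos_of_pos_left _ (by norm_num))
    (Nat.gcd_le_left _ (by norm_num)) hpos (by norm_num) Fintype.one_lt_card (by rw [h1]; simp only [mul_assoc]; exact Dvd.intro _ rfl)

theorem par_E7 {p : ℕ} [CharP F p] {l : ℕ} (hl : l.Prime) (hl2 : l ≠ 2) {V : Subgroup ↥(chevE7.group F)}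
    (hV : IsPGroup p V) (hV1 : V ≠ ⊥) (hd : l ∣ Nat.card (Subgroup.normalizer (V : Set ↥(chevE7.group F)))) :
    NotMin l ↥(chevE7.group F) := by
  have hp : IsType chevE7 7 CoxeterMatrix.E₇ := by simp [IsType, typeList]
  refine par_chev hp (by norm_num) Cfsg.Agent.H155.TG.conn_E7 (by decide +kernel) ?_ hl hl2 hV hV1 hd
  have h1 := Cfsg.Agent.S1064.result (F := F) rfl
  have hpos : 0 < Nat.card ↥(chevE7.group F) := Nat.card_pos
  exact card_lt (c := Nat.gcd 2 (Fintype.card F - 1)) (N := 63) (Nat.gcd_pos_of_pos_left _ (by norm_num))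
    ((Nat.gcd_le_left _ (by norm_num)).trans (by norm_num)) hpos
    (by norm_num) Fintype.one_lt_card (by rw [h1]; simp only [mul_assoc]; exact Dvd.intro _ rfl)

theorem par_E8 {p : ℕ} [CharP F p] {l : ℕ} (hl : l.Prime) (hl2 : l ≠ 2) {V : Subgroup ↥(chevE8.group F)}
    (hV : IsPGroup p V) (hV1 : V ≠ ⊥) (hd : l ∣ Nat.card (Subgroup.normalizer (V : Set ↥(chevE8.group F)))) :
    NotMin l ↥(chevE8.group F) := by
  have hp : IsType chevE8 8 CoxeterMatrix.E₈ := by simp [IsType, typeList]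
  refine par_chev hp (by norm_num) Cfsg.Agent.H155.TG.conn_E8 (by decide +kernel) ?_ hl hl2 hV hV1 hd
  have h1 := Cfsg.Agent.S1065.result (F := F) rfl
  have hpos : 0 < Nat.card ↥(chevE8.group F) := Nat.card_pos
  exact card_lt (c := 1) (N := 120) one_pos (by norm_num) hpos
    (by norm_num) Fintype.one_lt_card (by rw [one_mul, h1]; simp only [mul_assoc]; exact Dvd.intro _ rfl)

end Chev

/-! ### `²E₆(q)` -/

section TwE6

open CoxeterSystem Cfsg.Agent.ChevalleyStructure.CoxeterGeom Cfsg.Agent.Tits.Roots Cfsg.Agent.Tits.Core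
open Cfsg.Agent.Nodes Cfsg.Agent.Nodes.RGDLib Cfsg.Agent.Nodes.RGDChev
open Cfsg.Agent.ChevalleyStructure Cfsg.Agent.ChevalleyStructure.Elts Cfsg.Agent.ChevalleyStructure.NPerm
  Cfsg.Agent.ChevalleyStructure.CoxeterGeomTypes
open Cfsg.Agent.H138.SqChev
open Cfsg.Lie

variable {K : Type} [Field K] [Fintype K]

theorem card_twE6_gt {q : ℕ} (hq : IsPrimePow q) (hK : Fintype.card K = q ^ 2) :
    q * (q ^ 2 - 1) < Nat.card ↥(twistedE6 K q) := by
  have h1 := Cfsg.Agent.S1066.result hq hK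
  have hpos : 0 < Nat.card ↥(twistedE6 K q) := Nat.card_pos
  exact card_lt (c := Nat.gcd 3 (q + 1)) (N := 36) (Nat.gcd_pos_of_pos_left _ (by norm_num))
    (Nat.gcd_le_left _ (by norm_num)) hpos (by norm_num) hq.one_lt (by rw [h1]; simp only [mul_assoc]; exact Dvd.intro _ rfl)

/-- `SL₂(q)` is generated by the elementary matrices. -/
theorem sl2_induction {k : Type} [Field k] (P : Subgroup (Matrix.SpecialLinearGroup (Fin 2) k))
    (h1 : ∀ t, Cfsg.Agent.H135.TorusTab.up k t ∈ P) (h2 : ∀ t, Cfsg.Agent.H135.TorusTab.lo k t ∈ P)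
    (A : Matrix.SpecialLinearGroup (Fin 2) k) : A ∈ P := by
  by_cases hc : A.1 1 0 = 0
  · rw [(Cfsg.Agent.H135.TorusTab.sl_eq_of_zero hc).2]
    exact mul_mem (h1 _) (mul_mem (mul_mem (mul_mem (h1 _) (h2 _)) (h1 _)) (mul_mem (mul_mem (h1 _) (h2 _)) (h1 _)))
  · rw [Cfsg.Agent.H135.TorusTab.sl_eq_of_ne hc]
    exact mul_mem (mul_mem (h1 _) (h2 _)) (h1 _)

theorem notMin_twE6 {q : ℕ} (hq : IsPrimePow q) (hK : Fintype.card K = q ^ 2) (h4 : 3 < q) {l : ℕ} (hl : l.Prime)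
    (hl2 : l ≠ 2) (hd : l ∣ q * (q ^ 2 - 1)) : NotMin l ↥(twistedE6 K q) := by
  obtain ⟨k, _, _, ι, hk, hι⟩ := Cfsg.Agent.H343.exists_subfield K hq two_ne_zero hK
  have hD : InList chevE6 := by simp
  obtain ⟨ψ, -, hψ⟩ := Cfsg.Agent.S1030.result (F := K) chevE6 hD e6p2 (by decide +kernel)
  have hneg : chevE6.neg e6p2 = e6m2 := by decide +kernel
  let m : Matrix.SpecialLinearGroup (Fin 2) k →* Matrix.SpecialLinearGroup (Fin 2) K :=
    Matrix.SpecialLinearGroup.map ι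
  have hup : ∀ t : k, m (Cfsg.Agent.H135.TorusTab.up k t) = Cfsg.Agent.H135.TorusTab.up K (ι t) := by
    intro t
    apply Subtype.ext
    ext i j
    show ι (!![1, t; 0, 1] i j) = !![1, ι t; 0, 1] i j
    fin_cases i <;> fin_cases j <;> simp
  have hlo : ∀ t : k, m (Cfsg.Agent.H135.TorusTab.lo k t) = Cfsg.Agent.H135.TorusTab.lo K (ι t) := by
    intro t
    apply Subtype.ext
    ext i j
    show ι (!![1, 0; t, 1] i j) = !![1, 0; ι t, 1] i j
    fin_cases i <;> fin_cases j <;> simp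
  have key : ∀ r ∈ [e6p2, e6m2, e6p4, e6m4], ∀ t : K, t ^ q = t → ∀ g : GL chevE6.Idx K,
      (g : Matrix chevE6.Idx chevE6.Idx K) = chevE6.x K r t → g ∈ twistedE6 K q := by
    intro r hr t ht g hg
    refine Subgroup.subset_closure ⟨[(r, t)], Or.inl ⟨t, ht, r, hr, rfl⟩, ?_⟩
    rw [wordMat_cons, wordMat_nil, mul_one, hg]
  have hmem : ∀ A, ψ (m A) ∈ twistedE6 K q := by
    intro A
    refine sl2_induction ((twistedE6 K q).comap (ψ.comp m)) (fun t => ?_) (fun t => ?_) A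
    · rw [Subgroup.mem_comap, MonoidHom.comp_apply, hup]
      exact key e6p2 (by simp) (ι t) (hι t) _ ((hψ _ _).1 rfl)
    · rw [Subgroup.mem_comap, MonoidHom.comp_apply, hlo]
      exact key e6m2 (by simp) (ι t) (hι t) _ (by rw [← hneg]; exact (hψ _ _).2 rfl)
  refine notMin_of_sl2 (K := k) (by omega) ((ψ.comp m).codRestrict (twistedE6 K q) hmem) ?_
    (by rw [card_SL2, hk]; exact card_twE6_gt hq hK) hl hl2 (by rwa [card_SL2, hk])
  refine ⟨Cfsg.Agent.H135.TorusTab.up k 1, fun h3 => ?_⟩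
  have h4 : ψ (m (Cfsg.Agent.H135.TorusTab.up k 1)) = 1 := congrArg Subtype.val h3
  rw [hup] at h4
  have h5 := (hψ (Cfsg.Agent.H135.TorusTab.up K (ι 1)) (ι 1)).1 rfl
  rw [h4, Units.val_one] at h5
  have h6 := (x_eq_one_iff hD (by decide +kernel) (ι 1 : K)).1 h5.symm
  rw [map_one] at h6
  exact one_ne_zero h6

/-- the primes dividing the order of `F₄(q)`, `q` even -/
theorem notMin_of_F4 [CharP K 2] {q : ℕ} (hq : IsPrimePow q) (hK : Fintype.card K = q ^ 2) {l : ℕ} (hl : l.Prime)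
    (hd : l ∣ q ^ 24 * (q ^ 2 - 1) * (q ^ 6 - 1) * (q ^ 8 - 1) * (q ^ 12 - 1)) : NotMin l ↥(twistedE6 K q) := by
  have : Fact l.Prime := ⟨hl⟩
  obtain ⟨k, _, _, f, hk, hf⟩ := Cfsg.Agent.H631.Fpf.EmbF4.exists_F4_hom hq hK
  obtain ⟨hs, hna⟩ := Cfsg.Agent.S1054.result (F := k) chevF4 (by simp)
  have hc := Cfsg.Agent.S1062.result (F := k) hk
  have hna' : ∃ x y : ↥(chevF4.group k), x * y ≠ y * x := by
    by_contra hcon
    push Not at hcon
    exact hna ⟨⟨hcon⟩⟩
  refine NotMin.of_injective f hf (Cfsg.Agent.H562.PQR.not_isPSolvable_of_simple hna' hl (by rwa [hc])) ?_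
  rw [hc]
  have h1 := Cfsg.Agent.S1066.result hq hK
  have h3 : Nat.gcd 3 (q + 1) ≤ 3 := Nat.gcd_le_left _ (by norm_num)
  have h2 : 2 ≤ q := hq.two_le
  have hA : 0 < q ^ 24 * (q ^ 2 - 1) * (q ^ 6 - 1) * (q ^ 8 - 1) * (q ^ 12 - 1) := by
    rw [← hc]; exact Nat.card_pos
  have h4 : q ^ 36 * (q ^ 2 - 1) * (q ^ 5 + 1) * (q ^ 6 - 1) * (q ^ 8 - 1) * (q ^ 9 + 1) * (q ^ 12 - 1) =
      (q ^ 12 * (q ^ 5 + 1) * (q ^ 9 + 1)) * (q ^ 24 * (q ^ 2 - 1) * (q ^ 6 - 1) * (q ^ 8 - 1) * (q ^ 12 - 1)) := by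
    ring
  rw [h4] at h1
  generalize q ^ 24 * (q ^ 2 - 1) * (q ^ 6 - 1) * (q ^ 8 - 1) * (q ^ 12 - 1) = A at h1 hA ⊢
  have h5 : 4 ≤ q ^ 12 * (q ^ 5 + 1) * (q ^ 9 + 1) := by
    have h6 : 2 ^ 12 ≤ q ^ 12 := Nat.pow_le_pow_left h2 12
    calc 4 ≤ 2 ^ 12 * 1 * 1 := by norm_num
      _ ≤ q ^ 12 * (q ^ 5 + 1) * (q ^ 9 + 1) :=
        Nat.mul_le_mul (Nat.mul_le_mul h6 (Nat.le_add_left 1 _)) (Nat.le_add_left 1 _)
  have h6 : 4 * A ≤ q ^ 12 * (q ^ 5 + 1) * (q ^ 9 + 1) * A := Nat.mul_le_mul_right A h5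
  have h7 : Nat.gcd 3 (q + 1) * Nat.card ↥(twistedE6 K q) ≤ 3 * Nat.card ↥(twistedE6 K q) :=
    Nat.mul_le_mul_right _ h3
  omega

open Cfsg.Agent.Nodes.RGDTwE6 Cfsg.Agent.Nodes.RGDTwCoordE6 Cfsg.Agent.Nodes.RGDTwCoord
  Cfsg.Agent.Nodes.RGDTwComE6 Cfsg.Agent.Nodes.RGDTwActE6 Cfsg.Agent.Nodes.RGDTwTab
  Cfsg.Agent.KFacts.TwESix.Comb

/-- **The parabolic lemma for `²E₆(q)`** -/
theorem par_2E6 {q : ℕ} (hq : IsPrimePow q) (hK : Fintype.card K = q ^ 2) {p : ℕ} [CharP K p] {l : ℕ} (hl : l.Prime)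
    (hl2 : l ≠ 2) {V : Subgroup ↥(twistedE6 K q)} (hV : IsPGroup p V) (hV1 : V ≠ ⊥)
    (hd : l ∣ Nat.card (Subgroup.normalizer (V : Set ↥(twistedE6 K q)))) : NotMin l ↥(twistedE6 K q) := by
  have : Fact p.Prime := ⟨CharP.char_is_prime K p⟩
  obtain ⟨φ, hφ, hqq⟩ := ChevalleyStructure.TwE6Basic.exists_frob hq hK
  have hfin : Finite ↥(twistedE6 K q) := inferInstance
  have hW : Finite CoxeterMatrix.F₄.Group := finiteW CoxeterMatrix.F₄.toCoxeterSystem
  have R := RGDTwE6.rgd CoxeterMatrix.F₄.toCoxeterSystem hφ hqq p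
  have hF := KFacts.RgdFiltTwAll.filt_fold CoxeterMatrix.F₄.toCoxeterSystem RGDTwE6.isCartan RGDTwE6.foldData
      (RGDTwE6.foldGrp hφ hqq) p
  have hG := RGDTwE6.G1_eq_top CoxeterMatrix.F₄.toCoxeterSystem hφ hqq
  by_cases hT : l ∣ Nat.card (RGDTwE6.T K q)
  · have h1 : l ∣ q ^ 2 - 1 := by
      rw [← hK]
      refine dvd_of_exp hl ?_ hT
      intro t ht
      apply Subtype.ext
      rw [SubgroupClass.coe_pow]
      exact diag_pow RGDTwE6.hp K ht.1
    by_cases hp2 : p = 2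
    · subst hp2
      refine notMin_of_F4 hq hK hl ?_
      exact Dvd.dvd.mul_right (Dvd.dvd.mul_right (Dvd.dvd.mul_right (Dvd.dvd.mul_left h1 _) _) _) _
    · refine notMin_twE6 hq hK ?_ hl hl2 (Dvd.dvd.mul_left h1 _)
      by_contra hle
      have h2 : q = 2 ∨ q = 3 := by
        have := hq.two_le
        omega
      rcases h2 with rfl | rfl
      · apply hp2
        obtain ⟨n, hn, hc⟩ := FiniteField.card K p
        rw [hK] at hc
        have h3 : p ∣ 2 ^ 2 := by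
          rw [hc]
          exact dvd_pow_self p n.ne_zero
        exact (Nat.prime_dvd_prime_iff_eq hn Nat.prime_two).1 (hn.dvd_of_dvd_pow h3)
      · have h3 : l ∣ 2 ^ 3 := by
          norm_num at h1 ⊢
          exact h1
        exact hl2 ((Nat.prime_dvd_prime_iff_eq hl Nat.prime_two).1 (hl.dvd_of_dvd_pow h3))
  · exact notMin_of_rgd R hF hG Cfsg.Agent.H155.TG.conn_F4 (by norm_num) hl (Or.inr hT) hV hV1 hd

end TwE6

end Cfsg.Agent.H274.Pqr
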